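import Cfsg.Agent.H860.I4.Proj

/-!
# Strong reality of `u v`, `u` of exact prime order, `v ∈ K`, `C(u) = ⟨u⟩ × K` (helper860)

* `exists_real` : `|N(P) : C(P)|` even: some `n ∈ N(P)` inverts `P`;
* `exists_inverter` : if moreover `N(P)` induces inner automorphisms on `K` and `Z(K) = 1`: some `n` with `n² = 1` inverts `P` and
  centralizes `K`;
* `sr_mul` : then `u v` is strongly real if `v` is strongly real in `K`.
-/

set_option autoImplicit false

namespace Cfsg.Agent.H860.I4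

open Cfsg Subgroup
open Cfsg.Agent.Characters Cfsg.Agent.Characters.Core
open Cfsg.Agent.SmallSimple.ThetaSetup Cfsg.Agent.SmallSimple.ThetaOrtho
open Cfsg.Agent.H854.Ore (SR)
open Cfsg.Agent.H529.Inv.Pair

universe u

variable {G : Type u} [Group G] [Finite G] {p : ℕ} [hp : Fact p.Prime] {P : Sylow p G} {K : Subgroup G}

theorem exists_real (hK : IsComp p (P : Subgroup G) K) (hP : Nat.card P = p)
    (he : 2 ∣ (centralizer ((P : Subgroup G) : Set G)).relIndex (normalizer ((P : Subgroup G) : Set G))) :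
    ∃ n ∈ normalizer ((P : Subgroup G) : Set G), ∀ u : P, n * u * n⁻¹ = (u : G)⁻¹ := by
  have f2 : Fact (Nat.Prime 2) := ⟨Nat.prime_two⟩
  rw [← card_stab_one hK hP rfl] at he
  obtain ⟨r, hr⟩ := exists_prime_orderOf_dvd_card' (G := stabAct hK (1 : K → ℂ)) 2 he
  have hr2 : (r : MulAut P) * r = 1 := by
    have h1 := pow_orderOf_eq_one r
    rw [hr, pow_two] at h1
    exact congrArg Subtype.val h1
  have hr1 : (r : MulAut P) ≠ 1 := by
    intro h
    have h1 : r = 1 := Subtype.ext h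
    rw [h1, orderOf_one] at hr
    omega
  obtain ⟨n, hn, hrn, -⟩ := r.2
  have hcomm : ∀ a b : P, a * b = b * a := by
    intro a b
    have h1 : (a : G) * b = b * a := by
      have h2 := SmallSimple.ThetaSetup.le_centralizer hP b.2
      exact (mem_centralizer_iff.1 h2 a a.2)
    exact Subtype.ext h1
  -- the fixed points
  let F : Subgroup P :=
    { carrier := {x | (r : MulAut P) x = x}
      one_mem' := map_one _
      mul_mem' := fun {a b} ha hb => by
        show (r : MulAut P) (a * b) = a * b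
        rw [map_mul, show (r : MulAut P) a = a from ha, show (r : MulAut P) b = b from hb]
      inv_mem' := fun {a} ha => by
        show (r : MulAut P) a⁻¹ = a⁻¹
        rw [map_inv, show (r : MulAut P) a = a from ha] }
  have hF : F = ⊥ := by
    have h1 : Nat.card F ∣ p := by
      have h2 := Subgroup.card_subgroup_dvd_card F
      rwa [show Nat.card P = p from hP] at h2
    rcases (Nat.dvd_prime hp.out).1 h1 with h2 | h2
    · exact Subgroup.card_eq_one.1 h2
    · exfalso
      apply hr1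
      have h3 : F = ⊤ := Subgroup.eq_top_of_card_eq F (by rw [h2]; exact hP.symm)
      ext x
      have h4 : x ∈ F := by rw [h3]; exact mem_top x
      exact congrArg Subtype.val (show (r : MulAut P) x = x from h4)
  refine ⟨n, hn, fun u => ?_⟩
  have h1 : u * (r : MulAut P) u ∈ F := by
    show (r : MulAut P) (u * (r : MulAut P) u) = u * (r : MulAut P) u
    rw [map_mul]
    have h2 : (r : MulAut P) ((r : MulAut P) u) = u := by
      rw [← MulAut.mul_apply, hr2, MulAut.one_apply]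
    rw [h2, hcomm]
  rw [hF, Subgroup.mem_bot] at h1
  have h2 : (r : MulAut P) u = u⁻¹ := (inv_eq_of_mul_eq_one_right h1).symm
  rw [← hrn u, h2]
  rfl

/-- **An involution inverting `P` and centralizing `K`.** -/
theorem exists_inverter (hp2 : p ≠ 2) (hK : IsComp p (P : Subgroup G) K) (hP : Nat.card P = p)
    (he : 2 ∣ (centralizer ((P : Subgroup G) : Set G)).relIndex (normalizer ((P : Subgroup G) : Set G)))
    (hin : ∀ n ∈ normalizer ((P : Subgroup G) : Set G), ∃ h ∈ K, ∀ y ∈ K, n * y * n⁻¹ = h * y * h⁻¹)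
    (hZ : ∀ z ∈ K, (∀ y ∈ K, z * y = y * z) → z = 1) :
    ∃ n : G, n * n = 1 ∧ (∀ y ∈ K, n * y = y * n) ∧ ∀ u : P, n * u * n⁻¹ = (u : G)⁻¹ := by
  obtain ⟨m, hm, hmu⟩ := exists_real hK hP he
  obtain ⟨h, hh, hhy⟩ := hin m hm
  have hhu : ∀ u : P, h * u = u * h := fun u => (hK.comm u.2 hh).symm
  have hu : ∀ u : P, m * h⁻¹ * u * (m * h⁻¹)⁻¹ = (u : G)⁻¹ := by
    intro u
    calc m * h⁻¹ * u * (m * h⁻¹)⁻¹ = m * (h⁻¹ * (u * h)) * m⁻¹ := by group
      _ = m * u * m⁻¹ := by rw [← hhu u]; group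
      _ = (u : G)⁻¹ := hmu u
  have hy : ∀ y ∈ K, (m * h⁻¹) * y = y * (m * h⁻¹) := by
    intro y hy
    have h1 := hhy (h⁻¹ * y * h) (K.mul_mem (K.mul_mem (K.inv_mem hh) hy) hh)
    have h2 : h * (h⁻¹ * y * h) * h⁻¹ = y := by group
    rw [h2] at h1
    have h3 : m * h⁻¹ * y * (m * h⁻¹)⁻¹ = y := by
      calc m * h⁻¹ * y * (m * h⁻¹)⁻¹ = m * (h⁻¹ * y * h) * m⁻¹ := by group
        _ = y := h1
    exact mul_inv_eq_iff_eq_mul.1 h3
  set n := m * h⁻¹ with hn
  have hnC : n * n ∈ centralizer ((P : Subgroup G) : Set G) := by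
    rw [mem_centralizer_iff]
    intro x hx
    have h1 := hu ⟨x, hx⟩
    have h2 := hu ⟨x, hx⟩⁻¹
    have h3 : n * n * x * (n * n)⁻¹ = x := by
      calc n * n * x * (n * n)⁻¹ = n * (n * x * n⁻¹) * n⁻¹ := by group
        _ = n * x⁻¹ * n⁻¹ := by rw [show n * x * n⁻¹ = x⁻¹ from h1]
        _ = x := by
          have h4 : n * x⁻¹ * n⁻¹ = (x⁻¹)⁻¹ := h2
          rw [h4, inv_inv]
    exact (mul_inv_eq_iff_eq_mul.1 h3).symm
  obtain ⟨x, hx, z, hz, hxz⟩ := hK.exists_mul hP hnC
  have hz1 : z = 1 := by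
    refine hZ z hz fun y hyK => ?_
    have h1 : n * n * y = y * (n * n) := by rw [mul_assoc, hy y hyK, ← mul_assoc, hy y hyK, mul_assoc]
    have h2 : x * y = y * x := hK.comm hx hyK
    rw [← hxz] at h1
    apply mul_left_cancel (a := x)
    calc x * (z * y) = x * z * y := by group
      _ = y * (x * z) := h1
      _ = y * x * z := by group
      _ = x * y * z := by rw [h2]
      _ = x * (y * z) := by group
  rw [hz1, mul_one] at hxz
  have h1 : n * x * n⁻¹ = x⁻¹ := hu ⟨x, hx⟩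
  have h2 : n * x * n⁻¹ = x := by rw [hxz]; group
  rw [h2] at h1
  have h3 : x * x = 1 := by nth_rewrite 2 [h1]; exact mul_inv_cancel x
  have h4 : x = 1 := by
    have h5 : orderOf x ∣ 2 := orderOf_dvd_of_pow_eq_one (by rw [pow_two]; exact h3)
    have h6 : orderOf x ∣ p := by
      have h7 := Subgroup.orderOf_dvd_natCard (P : Subgroup G) hx
      rwa [show Nat.card (P : Subgroup G) = p from hP] at h7
    have h7 := Nat.dvd_gcd h5 h6
    rw [show Nat.gcd 2 p = 1 from (Nat.coprime_primes Nat.prime_two hp.out).2 (Ne.symm hp2), Nat.dvd_one,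
      orderOf_eq_one_iff] at h7
    exact h7
  exact ⟨n, by rw [← hxz, h4], hy, hu⟩

/-- **Strong reality.** -/
theorem sr_mul (hK : IsComp p (P : Subgroup G) K) {n : G} (hn : n * n = 1) (hnK : ∀ y ∈ K, n * y = y * n)
    (hnP : ∀ u : P, n * u * n⁻¹ = (u : G)⁻¹) (u : P) {v : G} (hv : v ∈ K)
    (hj : ∃ j ∈ K, j * j = 1 ∧ j * v = v⁻¹ * j) : SR ((u : G) * v) := by
  obtain ⟨j, hjK, hjj, hjv⟩ := hj
  exact SR.mul_of_two (hK.comm u.2 hv) hn hjj (hnK j hjK) (hnP u) (mul_inv_eq_iff_eq_mul.2 hjv)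
    (hK.comm u.2 hjK).symm (hnK v hv)

end Cfsg.Agent.H860.I4
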